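import Cfsg.Agent.Lib.Pronormal2.Unitary.BaseOdd

/-!
Sylow `2`-subgroups of `GU₂(q)`, `q` odd.
-/

set_option autoImplicit false
set_option linter.style.haveILetI false
set_option linter.unusedSectionVars false

namespace Cfsg.Agent.Lib.Pronormal2.Unitary

open Matrix Cfsg.Agent.Lib.Classical
open scoped MatrixGroups

universe u

variable {F : Type u} [Field F] [Fintype F]

theorem neg_one_mem_gu {ι : Type} [Fintype ι] [DecidableEq ι] {q : ℕ} (hq : Odd q) :
    (-1 : GL ι F) ∈ gu F ι q := by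
  refine mem_gu.2 fun u v => Finset.sum_congr rfl fun i _ => ?_
  simp [Matrix.neg_mulVec, hq.neg_pow]

/-- A norm-one element of `2`-power order that is no square of a norm-one element. -/
theorem exists_nonsquare_norm {q : ℕ} (hF : Fintype.card F = q ^ 2) (hq : Odd q) :
    ∃ ε : Fˣ, ε ^ (q + 1) = 1 ∧ (¬ ∃ r : Fˣ, r ^ (q + 1) = 1 ∧ ε = r * r) ∧ ∃ k : ℕ, ε ^ 2 ^ k = 1 := by
  classical
  let μ : Subgroup Fˣ := (powMonoidHom (q + 1)).ker
  have hμ : ∀ r : Fˣ, r ∈ μ ↔ r ^ (q + 1) = 1 := fun r => by simp [μ]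
  have h2 : (2 : F) ≠ 0 := two_ne_zero_of_odd_card (by rw [hF]; exact hq.pow)
  have hneg : (-1 : Fˣ) ∈ μ := (hμ _).2 (Even.neg_one_pow (by
    obtain ⟨c, hc⟩ := hq; exact ⟨c + 1, by omega⟩))
  obtain ⟨a, ha⟩ : ∃ a : μ, ∀ b : μ, b * b ≠ a := by
    by_contra! h
    have hinj : Function.Injective (fun b : μ => b * b) := Finite.injective_iff_surjective.2 h
    have := congrArg (fun b : μ => ((b : Fˣ) : F))
      (hinj (show (fun b : μ => b * b) ⟨-1, hneg⟩ = (fun b : μ => b * b) 1 from Subtype.ext (by simp)))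
    simp at this
    exact h2 (by linear_combination -this)
  obtain ⟨i, j, hij, hi, k, hj⟩ := exists_parts a
  refine ⟨((a ^ j : μ) : Fˣ), (hμ _).1 (a ^ j : μ).2, ?_, k, ?_⟩
  · rintro ⟨r, hr, he⟩
    obtain ⟨m, hm⟩ := hi
    refine ha ((a ^ i) ^ (m + 1) * ⟨r, (hμ r).2 hr⟩) ?_
    have e1 : (a ^ i) ^ (m + 1) * (a ^ i) ^ (m + 1) = a ^ i := by
      rw [← pow_add, show m + 1 + (m + 1) = orderOf (a ^ i) + 1 by omega, pow_succ, pow_orderOf_eq_one, one_mul]
    conv_rhs => rw [hij]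
    rw [mul_mul_mul_comm, e1]
    congr 1
    exact Subtype.ext he.symm
  · rw [← SubgroupClass.coe_pow, hj]; rfl

theorem mem_SU_iff {q : ℕ} {g : SL(2, F)} :
    g ∈ Cfsg.SU 2 F q ↔ SpecialLinearGroup.toGL g ∈ gu F (Fin 2) q := Iff.rfl

/-- The structure of a Sylow `2`-subgroup of `SU₂`. -/
theorem sylow_facts_SU {q : ℕ} (hF : Fintype.card F = q ^ 2) (hq : Odd q)
    (P : Sylow 2 (Cfsg.SU 2 F q)) :
    (∃ a b : (P : Subgroup (Cfsg.SU 2 F q)), Subgroup.closure {a, b} = ⊤ ∧ CycTwo (Subgroup.zpowers a) ∧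
      a * b ≠ b * a) ∧ ∃ c ∈ (P : Subgroup (Cfsg.SU 2 F q)), ((c : SL(2, F)) * c) = -1 := by
  haveI : Fact (Nat.Prime 2) := ⟨Nat.prime_two⟩
  let K : Subfield F := RingHom.eqLocusField (Cfsg.Agent.Lib.UnitaryConj.qHom hF) (RingHom.id F)
  have hK : Nat.card K = q := Herm.card_fixed hF
  letI := Fintype.ofFinite K
  have hK' : Fintype.card K = q := by rw [← Nat.card_eq_fintype_card]; exact hK
  obtain ⟨E⟩ := Herm.SU_two_equiv (K := K) hF hK' K.subtype
  obtain ⟨P', hP'⟩ : ∃ P' : Sylow 2 (SL(2, K)), (P' : Subgroup (SL(2, K))) = (P : Subgroup _).map E.toMonoidHom :=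
    ⟨P.mapSurjective (f := E.toMonoidHom) E.surjective, rfl⟩
  have hKodd : Odd (Fintype.card K) := by rw [hK']; exact hq
  obtain ⟨⟨a, b, hgen, hcyc, hne⟩, c, hc, hcc⟩ := sylow_facts hKodd P'
  let e : (P : Subgroup (Cfsg.SU 2 F q)) ≃* (P' : Subgroup (SL(2, K))) :=
    ((P : Subgroup (Cfsg.SU 2 F q)).equivMapOfInjective E.toMonoidHom E.injective).trans (MulEquiv.subgroupCongr hP'.symm)
  refine ⟨⟨e.symm a, e.symm b, ?_, ⟨inferInstance, ?_⟩, fun h => hne (e.symm.injective (by rw [map_mul, map_mul]; exact h))⟩, ?_⟩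
  · have := congrArg (Subgroup.map e.symm.toMonoidHom) hgen
    rw [MonoidHom.map_closure, Subgroup.map_top_of_surjective e.symm.toMonoidHom e.symm.surjective, Set.image_pair] at this
    exact this
  · have h2 := Subgroup.index_map_equiv (Subgroup.zpowers a) e.symm
    rw [MonoidHom.map_zpowers, hcyc.2] at h2
    exact h2
  · refine ⟨E.symm c, ?_, ?_⟩
    · rw [hP'] at hc
      obtain ⟨d, hd, rfl⟩ := hc
      show E.symm (E d) ∈ _
      rw [E.symm_apply_apply]
      exact hd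
    · have hsq : (E.symm c * E.symm c) ^ 2 = 1 := by
        rw [← map_mul, hcc, ← map_pow, show (-1 : SL(2, K)) ^ 2 = 1 by simp, map_one]
      have hne1 : E.symm c * E.symm c ≠ 1 := by
        rw [← map_mul, hcc]
        exact fun h => sl_two_neg_one_ne_one (two_ne_zero_of_odd_card hKodd)
          (E.symm.injective (h.trans E.symm.map_one.symm))
      refine (sl_two_sq_eq_one (two_ne_zero_of_odd_card (by rw [hF]; exact hq.pow)) ?_).resolve_left
        fun h => hne1 (Subtype.ext h)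
      simpa using congrArg Subtype.val hsq

theorem goodU_two {q : ℕ} (hF : Fintype.card F = q ^ 2) (hq : Odd q) : GoodU F (Fin 2) q := by
  classical
  haveI : Fact (Nat.Prime 2) := ⟨Nat.prime_two⟩
  have hFodd : Odd (Fintype.card F) := by rw [hF]; exact hq.pow
  obtain ⟨P⟩ : Nonempty (Sylow 2 (Cfsg.SU 2 F q)) := inferInstance
  let φ : Cfsg.SU 2 F q →* GL (Fin 2) F := SpecialLinearGroup.toGL.comp (Cfsg.SU 2 F q).subtype
  have hφ : Function.Injective φ := toGL_injective.comp Subtype.val_injective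
  let G := gu F (Fin 2) q
  let φ' : Cfsg.SU 2 F q →* G := φ.codRestrict G fun g => mem_SU_iff.1 g.2
  obtain ⟨S, hS⟩ := (P.isPGroup'.map φ').exists_le_sylow
  set S' := (S : Subgroup G).map G.subtype with hS'
  have hneg : (-1 : GL (Fin 2) F) ∈ S' := by
    let z : G := ⟨-1, neg_one_mem_gu hq⟩
    have hz2 : z ^ 2 ^ 1 = 1 := Subtype.ext (by simp [z])
    refine ⟨z, mem_sylow_of_normalizes S (fun s hs => ?_) hz2, rfl⟩
    rwa [show z * s * z⁻¹ = s from Subtype.ext (by simp [z])]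
  let T : TwoSub F (Fin 2) := ⟨S', S.2.map _, hneg⟩
  have hTG : (T : Subgroup (GL (Fin 2) F)) ≤ G := Subgroup.map_subtype_le _
  have hφS : ∀ g : Cfsg.SU 2 F q, g ∈ (P : Subgroup _) ↔ φ g ∈ (T : Subgroup (GL (Fin 2) F)) := by
    intro g
    constructor
    · exact fun hg => ⟨φ' g, hS ⟨g, hg, rfl⟩, rfl⟩
    · rintro ⟨y, hy, he⟩
      have hle : (P : Subgroup _) ≤ (S : Subgroup G).comap φ' := Subgroup.map_le_iff_le_comap.1 hS
      have : φ' g = y := Subtype.ext he.symm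
      exact (P.3 (S.2.comap_of_injective φ' (fun a b h => hφ (congrArg Subtype.val h))) hle) ▸ (show φ' g ∈ (S : Subgroup G) from this ▸ hy)
  have hlift : ∀ y ∈ (T : Subgroup (GL (Fin 2) F)) ⊓ slK F (Fin 2), ∃ g ∈ (P : Subgroup (Cfsg.SU 2 F q)), φ g = y := by
    intro y hy
    obtain ⟨hyT, hyd⟩ := Subgroup.mem_inf.1 hy
    obtain ⟨g, rfl⟩ := slK_eq (F := F) ▸ hyd
    exact ⟨⟨g, mem_SU_iff.2 (hTG hyT)⟩, (hφS _).2 hyT, rfl⟩
  have hin : ∀ g ∈ (P : Subgroup (Cfsg.SU 2 F q)), φ g ∈ (T : Subgroup (GL (Fin 2) F)) ⊓ slK F (Fin 2) :=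
    fun g hg => Subgroup.mem_inf.2 ⟨(hφS g).1 hg, toGL_mem_slK _⟩
  obtain ⟨⟨a, b, hgen, hcyc, hne⟩, c, hc, hcc⟩ := sylow_facts_SU hF hq P
  refine ⟨T, hTG, ?_, ?_, ⟨φ c, hin c hc, ?_⟩, ?_⟩
  · rw [show Nat.card (T : Subgroup (GL (Fin 2) F)) = Nat.card (S : Subgroup G) from
      Subgroup.card_map_of_injective G.subtype_injective, S.card_eq_multiplicity]
  · -- irreducible
    intro W hW
    have hle : Module.finrank F W ≤ 2 := (Submodule.finrank_le W).trans (by simp)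
    rcases (show Module.finrank F W = 0 ∨ Module.finrank F W = 1 ∨ Module.finrank F W = 2 by omega) with h | h | h
    · exact Or.inl (Submodule.finrank_eq_zero.1 h)
    swap
    · exact Or.inr (Submodule.eq_top_of_finrank_eq (by simpa using h))
    exfalso
    obtain ⟨⟨v, hvW⟩, hv, hspan⟩ := finrank_eq_one_iff'.1 h
    have hv0 : v ≠ 0 := fun e => hv (Subtype.ext e)
    let act : Cfsg.SU 2 F q → Matrix (Fin 2) (Fin 2) F := fun g => (g : SL(2, F)).1
    have hev : ∀ g : (P : Subgroup (Cfsg.SU 2 F q)), ∃ r : F, act g *ᵥ v = r • v := by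
      intro g
      obtain ⟨r, hr⟩ := hspan ⟨_, hW _ (hin g g.2) v hvW⟩
      exact ⟨r, (congrArg Subtype.val hr).symm⟩
    obtain ⟨r, hr⟩ := hev a
    obtain ⟨s, hs⟩ := hev b
    have hmul : ∀ g h : Cfsg.SU 2 F q, act (g * h) = act g * act h := fun g h => rfl
    have hr0 : r ≠ 0 := fun e => hv0 (by
      have := congrArg (fun w => act ((a : Cfsg.SU 2 F q)⁻¹) *ᵥ w) hr
      simp only [mulVec_mulVec, ← hmul, inv_mul_cancel, e, zero_smul, mulVec_zero] at this
      simpa [act] using this)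
    set w := (b * a)⁻¹ * (a * b) with hw
    have hwv : act w *ᵥ v = v := by
      have h1 : act (a * b : (P : Subgroup (Cfsg.SU 2 F q))) *ᵥ v = act (b * a : (P : Subgroup (Cfsg.SU 2 F q))) *ᵥ v := by
        rw [Subgroup.coe_mul, Subgroup.coe_mul, hmul, hmul, ← mulVec_mulVec, ← mulVec_mulVec, hr, hs, mulVec_smul,
          mulVec_smul, hr, hs, smul_smul, smul_smul, mul_comm]
      rw [hw, Subgroup.coe_mul, hmul, ← mulVec_mulVec, h1, mulVec_mulVec, ← hmul, ← Subgroup.coe_mul, inv_mul_cancel]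
      simp [act]
    obtain ⟨k, hk⟩ := P.isPGroup' w
    have hw1 := eq_one_of_fixes hFodd (c := ((w : Cfsg.SU 2 F q) : SL(2, F))) hv0 hwv (k := k) (by
      have := congrArg (fun g : (P : Subgroup (Cfsg.SU 2 F q)) => ((g : Cfsg.SU 2 F q) : SL(2, F))) hk
      simpa using this)
    have : w = 1 := Subtype.ext (Subtype.ext hw1)
    rw [hw, inv_mul_eq_one] at this
    exact hne this.symm
  · rw [← map_mul]
    show SpecialLinearGroup.toGL ((c : SL(2, F)) * (c : SL(2, F))) = (-1 : GL (Fin 2) F)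
    rw [hcc]
    apply Units.ext
    simp
  · let ψ : (P : Subgroup (Cfsg.SU 2 F q)) →* ↥((T : Subgroup (GL (Fin 2) F)) ⊓ slK F (Fin 2)) :=
      (φ.comp (P : Subgroup (Cfsg.SU 2 F q)).subtype).codRestrict _ fun g => hin g g.2
    have hψ : Function.Bijective ψ :=
      ⟨fun g h e => Subtype.ext (hφ (congrArg Subtype.val e)), fun y => by
        obtain ⟨g, hg, he⟩ := hlift y y.2
        exact ⟨⟨g, hg⟩, Subtype.ext he⟩⟩
    let e := MulEquiv.ofBijective ψ hψ
    refine oddCentral_two T hTG ⟨e a, e b, ?_, ⟨inferInstance, ?_⟩, fun h => hne (e.injective (by rw [map_mul, map_mul]; exact h))⟩ ?_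
    · have := congrArg (Subgroup.map e.toMonoidHom) hgen
      rw [MonoidHom.map_closure, Subgroup.map_top_of_surjective e.toMonoidHom e.surjective, Set.image_pair] at this
      exact this
    · have h2 := Subgroup.index_map_equiv (Subgroup.zpowers a) e
      rw [MonoidHom.map_zpowers, hcyc.2] at h2
      exact h2
    obtain ⟨ε, hε, hεns, k, hk⟩ := exists_nonsquare_norm hF hq
    let g : GL (Fin 2) F := GeneralLinearGroup.mkOfDetNeZero (Matrix.diagonal ![(ε : F), 1]) (by simp [Matrix.det_diagonal])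
    have hgd : GeneralLinearGroup.det g = ε := by ext; simp [g, Matrix.det_diagonal]
    have hgG : g ∈ G := by
      refine mem_gu.2 fun u v => ?_
      have e1 : (ε : F) * (ε : F) ^ q = 1 := by rw [← pow_succ', ← Units.val_pow_eq_pow_val, hε, Units.val_one]
      have hval : ∀ w : Fin 2 → F, g.val *ᵥ w = ![(ε : F) * w 0, w 1] := fun w => by
        show Matrix.diagonal ![(ε : F), 1] *ᵥ w = _
        ext i; fin_cases i <;> simp [Matrix.mulVec_diagonal]
      simp [hval, Fin.sum_univ_two, mul_pow]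
      linear_combination (u 0 * v 0 ^ q) * e1
    have hgk : (⟨g, hgG⟩ : G) ^ 2 ^ k = 1 := by
      apply Subtype.ext; apply Units.ext
      rw [SubgroupClass.coe_pow, Units.val_pow_eq_pow_val]
      show Matrix.diagonal ![(ε : F), 1] ^ 2 ^ k = 1
      rw [Matrix.diagonal_pow, ← Matrix.diagonal_one]
      congr 1
      ext i; fin_cases i <;> simp [← Units.val_pow_eq_pow_val, hk]
    obtain ⟨j, -, hj⟩ := (Nat.dvd_prime_pow Nat.prime_two).1 (orderOf_dvd_of_pow_eq_one hgk)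
    obtain ⟨S₁, hS₁⟩ := (IsPGroup.of_card (p := 2) (n := j) ((Nat.card_zpowers _).trans hj)).exists_le_sylow
    obtain ⟨h, hh⟩ := MulAction.exists_smul_eq G S S₁
    have hmem := hS₁ (Subgroup.mem_zpowers (⟨g, hgG⟩ : G))
    rw [← hh, Sylow.coe_subgroup_smul] at hmem
    obtain ⟨s, hs, hse⟩ := hmem
    refine ⟨s, ⟨s, hs, rfl⟩, ?_⟩
    have := congrArg (fun z : G => GeneralLinearGroup.det (z : GL (Fin 2) F)) hse
    simp [hgd, mul_comm] at this
    rintro ⟨r, hr, hr'⟩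
    exact hεns ⟨r, hr, by rw [← hr', this]⟩

end Cfsg.Agent.Lib.Pronormal2.Unitary
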