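import Cfsg.Agent.Lib.Pronormal2.Overgroup
import Cfsg.Agent.Lib.BN.FixSylow.Classical

/-!
Subgroups of index prime to the characteristic in `PSU_n`, `n` even, are pronormal.
-/

set_option autoImplicit false
set_option linter.style.haveILetI false
set_option linter.unusedSectionVars false

namespace Cfsg.Agent.Lib.Pronormal2.Unitary

open Cfsg Matrix QuadraticMap Cfsg.Agent.Lib.BN Cfsg.Agent.Lib.BN.FixSylow Cfsg.Agent.Lib.Classical.BN
  Cfsg.Agent.Lib.Classical.Quad Cfsg.Agent.Lib.Classical.QuadOmega Cfsg.Agent.Lib.Forms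

universe u

variable {F : Type u} [Field F] [Fintype F] {p : ℕ} [Fact p.Prime] [CharP F p]

theorem pronormal_psu_char {n q : ℕ} (hn : 4 ≤ n) (hn2 : Even n) (hF : Fintype.card F = q ^ 2)
    {H : Subgroup (Cfsg.PSU n F q)} (hidx : ¬ p ∣ H.index) : Cfsg.IsPronormal H := by
  classical
  obtain ⟨P, ⟨Fr⟩⟩ := exists_uframe hF n
  let G := (hermSpace Fr).G
  have hmem : ∀ A : Cfsg.SU n F q, P⁻¹ * Matrix.SpecialLinearGroup.toGL A.1 * P ∈ G := fun A => by
    have hval : ∀ x, P.1 *ᵥ ((P⁻¹ * Matrix.SpecialLinearGroup.toGL A.1 * P).1 *ᵥ x) =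
        (Matrix.SpecialLinearGroup.toGL A.1).1 *ᵥ (P.1 *ᵥ x) := fun x => by
      rw [← Space.act_mul, ← Space.act_mul, mul_assoc, mul_inv_cancel_left]
    refine ⟨fun x y => ?_, MonoidHom.mem_ker.2 ?_⟩
    · show Cfsg.hermForm n F q _ _ = Cfsg.hermForm n F q _ _
      rw [hval, hval]
      exact A.2 _ _
    · rw [map_mul, map_mul, map_inv, mul_comm, mul_inv_cancel_left]
      exact Units.ext (by simpa [Matrix.GeneralLinearGroup.det] using A.1.2)
  let h0 : Cfsg.SU n F q →* G := MonoidHom.mk' (fun A => ⟨_, hmem A⟩) fun A B => Subtype.ext (by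
    show P⁻¹ * Matrix.SpecialLinearGroup.toGL (A.1 * B.1) * P = _
    rw [map_mul]
    show _ = (P⁻¹ * Matrix.SpecialLinearGroup.toGL A.1 * P) * (P⁻¹ * Matrix.SpecialLinearGroup.toGL B.1 * P)
    group)
  have hb : Function.Bijective h0 := by
    refine ⟨fun A B h => ?_, fun g => ?_⟩
    · have h1 : P⁻¹ * Matrix.SpecialLinearGroup.toGL A.1 * P = P⁻¹ * Matrix.SpecialLinearGroup.toGL B.1 * P :=
        congrArg Subtype.val h
      have h2 := mul_left_cancel (mul_right_cancel h1)
      exact Subtype.ext (Subtype.ext (congrArg Units.val h2))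
    · obtain ⟨g, hg1, hg2⟩ := g
      set k := P * g * P⁻¹ with hk
      have hdet : k.1.det = 1 := by
        have : Matrix.GeneralLinearGroup.det k = 1 := by
          rw [hk, map_mul, map_mul, map_inv, show Matrix.GeneralLinearGroup.det g = 1 from MonoidHom.mem_ker.1 hg2,
            mul_one, mul_inv_cancel]
        simpa [Matrix.GeneralLinearGroup.det] using congrArg Units.val this
      let A0 : Matrix.SpecialLinearGroup (Fin n) F := ⟨k.1, hdet⟩
      have hA : Matrix.SpecialLinearGroup.toGL A0 = k := Units.ext rfl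
      have hmemA : A0 ∈ Cfsg.SU n F q := fun u v => by
        have h1 := hg1 ((P⁻¹).1 *ᵥ u) ((P⁻¹).1 *ᵥ v)
        have hP : ∀ w, P.1 *ᵥ ((P⁻¹).1 *ᵥ w) = w := fun w => by
          rw [← Space.act_mul, mul_inv_cancel, Space.act_one]
        have hk' : ∀ w, P.1 *ᵥ (g.1 *ᵥ ((P⁻¹).1 *ᵥ w)) = k.1 *ᵥ w := fun w => by
          rw [hk, Space.act_mul, Space.act_mul]
        change Cfsg.hermForm n F q _ _ = Cfsg.hermForm n F q _ _ at h1
        rw [hP, hP, hk', hk'] at h1
        exact h1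
      refine ⟨⟨A0, hmemA⟩, Subtype.ext ?_⟩
      show P⁻¹ * Matrix.SpecialLinearGroup.toGL A0 * P = g
      rw [hA, hk]
      group
  let e := MulEquiv.ofBijective h0 hb
  obtain ⟨N, hU, hT⟩ := (hermSpace Fr).exists_nodes_facts (hermSpace_typed Fr)
    (fun g hg hp h => hermSpace_ker Fr hg hp h)
  let f : (hermSpace Fr).G →* Cfsg.PSU n F q :=
    (QuotientGroup.mk' (Subgroup.center _)).comp e.symm.toMonoidHom
  have hf : Function.Surjective f := (QuotientGroup.mk'_surjective _).comp e.symm.surjective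
  have hk : f.ker ≤ Subgroup.center (hermSpace Fr).G := fun g hg => by
      rw [MonoidHom.mem_ker, MonoidHom.comp_apply, QuotientGroup.mk'_apply, QuotientGroup.eq_one_iff,
        Subgroup.mem_center_iff] at hg
      refine Subgroup.mem_center_iff.2 fun x => e.symm.injective ?_
      simpa using hg (e.symm x)
  let D := ((hermSpace Fr).split N).map f hf (hk.trans ((hermSpace Fr).center_le_T N))
  have hS : D.S.Nonempty := by
    suffices Nonempty N.κ by
      obtain ⟨i⟩ := this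
      exact ⟨_, ⟨N.rep i, (N.node i).mon.1⟩, ⟨i, rfl⟩, rfl⟩
    by_contra hκ
    rw [not_nonempty_iff] at hκ
    have h0 : 0 < n / 2 := by omega
    rcases N.rev 1 (one_mem _) (fun i => isEmptyElim i) ⟨0, h0⟩ with h | ⟨h, -⟩
    · obtain ⟨c, hc0, hc⟩ := h
      rw [Space.act_one] at hc
      have := congrFun hc ((hermSpace Fr).ix (⟨0, h0⟩, true))
      rw [Pi.smul_apply, (hermSpace Fr).v_self, smul_eq_mul] at this
      rcases eq_or_ne ((hermSpace Fr).v (⟨0, h0⟩, false) ((hermSpace Fr).ix (⟨0, h0⟩, true))) 0 with e' | e'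
      · rw [e', mul_zero] at this; exact one_ne_zero this
      · exact e' (by simp [Space.v, (hermSpace Fr).ix_inj.eq_iff])
    · simp only [zero_add] at h
      omega
  refine pronormal_overgroup (PData.ofSplit D (hU.map f) (fun h => hT (h.trans (Subgroup.card_map_dvd _ f))) hS) ?_ hidx
  intro a ha b hb
  have hTT : ∀ c ∈ (PData.ofSplit D (hU.map f) (fun h => hT (h.trans (Subgroup.card_map_dvd _ f))) hS).P.B ⊓
      (PData.ofSplit D (hU.map f) (fun h => hT (h.trans (Subgroup.card_map_dvd _ f))) hS).P.N, c ∈ D.T :=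
    fun c hc => by
      rw [← D.inf_mon]
      exact ⟨hc.1, D.Nsub_le hc.2⟩
  obtain ⟨a, ha', rfl⟩ := hTT a ha
  obtain ⟨b, hb', rfl⟩ := hTT b hb
  rw [← map_mul, ← map_mul]
  congr 1
  have hA : a.1 ∈ (hermSpace Fr).T := Subgroup.mem_subgroupOf.1 ha'
  have hB : b.1 ∈ (hermSpace Fr).T := Subgroup.mem_subgroupOf.1 hb'
  have hsurj : ∀ c, ∃ x, c = (hermSpace Fr).ix x := by
    have hcard : Fintype.card (Fin (n / 2) × Bool) = Fintype.card (Fin n) := by
      obtain ⟨t, rfl⟩ := hn2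
      simp
      omega
    exact fun c => (((Fintype.bijective_iff_injective_and_card _).2 ⟨(hermSpace Fr).ix_inj, hcard⟩).2 c).imp
      fun _ h => h.symm
  refine Subtype.ext (Units.ext (Matrix.ext_of_mulVec_single fun c => ?_))
  obtain ⟨x, rfl⟩ := hsurj c
  obtain ⟨r, hr⟩ := hA.2 x
  obtain ⟨s, hs⟩ := hB.2 x
  change (a.1.1 * b.1.1) *ᵥ (hermSpace Fr).v x = (b.1.1 * a.1.1) *ᵥ (hermSpace Fr).v x
  rw [← mulVec_mulVec, ← mulVec_mulVec, hr, hs, mulVec_smul, mulVec_smul, hr, hs, smul_smul, smul_smul, mul_comm]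

end Cfsg.Agent.Lib.Pronormal2.Unitary
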