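import Cfsg.Agent.Lib.Pronormal2.Core
import Cfsg.Agent.Lib.Classical.Unitary

/-!
The unitary group of the standard form, for a general index type.
-/

set_option autoImplicit false
set_option linter.style.haveILetI false
set_option linter.unusedSectionVars false

namespace Cfsg.Agent.Lib.Pronormal2.Unitary

open Matrix

universe u

variable {F : Type u} [Field F] [Fintype F] {ι : Type} [Fintype ι] [DecidableEq ι]

variable (F ι) in
/-- The unitary group inside `GL`. -/
def gu (q : ℕ) : Subgroup (GL ι F) :=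
  Cfsg.preserving (Units.coeHom (Matrix ι ι F)) fun u v => ∑ i, u i * v i ^ q

theorem mem_gu {q : ℕ} {g : GL ι F} : g ∈ gu F ι q ↔
    ∀ u v : ι → F, ∑ i, (g.val *ᵥ u) i * (g.val *ᵥ v) i ^ q = ∑ i, u i * v i ^ q := Iff.rfl

/-- A `2`-subgroup containing `-1`. -/
abbrev TwoSub (F : Type u) [Field F] (ι : Type) [Fintype ι] [DecidableEq ι] :=
  {S : Subgroup (GL ι F) // IsPGroup 2 S ∧ (-1 : GL ι F) ∈ S}

/-- An element of `G` of odd order normalizing `R` is central. -/
def OddCentralIn (G R : Subgroup (GL ι F)) : Prop :=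
  ∀ x ∈ G, Odd (orderOf x) → (∀ r ∈ R, x * r * x⁻¹ ∈ R) → x ∈ Subgroup.center (GL ι F)

variable (F ι) in
/-- The induction hypothesis. -/
def GoodU (q : ℕ) : Prop :=
  ∃ S : TwoSub F ι, (S : Subgroup (GL ι F)) ≤ gu F ι q ∧
    Nat.card (S : Subgroup (GL ι F)) = 2 ^ (Nat.card (gu F ι q)).factorization 2 ∧
    Irr ((S : Subgroup (GL ι F)) ⊓ slK F ι) ∧
    (∃ c ∈ (S : Subgroup (GL ι F)) ⊓ slK F ι, c * c = -1) ∧
    OddCentralIn (gu F ι q) (S : Subgroup (GL ι F))

theorem card_gu {q n : ℕ} (e : ι ≃ Fin n) : Nat.card (gu F ι q) = Nat.card (Cfsg.GU n F q) := by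
  obtain ⟨E, hE⟩ : ∃ E : GL ι F ≃* GL (Fin n) F, ∀ g, (E g).val = Matrix.reindex e e g.val :=
    ⟨Units.mapEquiv (Matrix.reindexAlgEquiv F F e).toMulEquiv, fun g => rfl⟩
  have hv : ∀ (g : GL ι F) (u : ι → F) (i : ι),
      ((E g).val *ᵥ (u ∘ e.symm)) (e i) = (g.val *ᵥ u) i := fun g u i => by
    rw [hE, Matrix.reindex_apply, Matrix.submatrix_mulVec_equiv]
    simp [Function.comp_assoc]
  have hmap : (gu F ι q).map E.toMonoidHom = Cfsg.GU n F q := by
    ext g
    obtain ⟨g, rfl⟩ := E.surjective g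
    rw [show E g = E.toMonoidHom g from rfl, Subgroup.mem_map_iff_mem E.injective, mem_gu,
      Classical.Herm.mem_GU]
    constructor
    · intro h u v
      have := h (u ∘ e) (v ∘ e)
      simp only [← hv, Function.comp_assoc, Equiv.self_comp_symm, Function.comp_id, Function.comp_apply] at this
      simpa [Cfsg.hermForm, Equiv.sum_comp e (fun i => ((E g).val *ᵥ u) i * ((E g).val *ᵥ v) i ^ q),
        Equiv.sum_comp e (fun i => u i * v i ^ q)] using this
    · intro h u v
      have := h (u ∘ e.symm) (v ∘ e.symm)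
      rw [Cfsg.hermForm, Cfsg.hermForm, ← Equiv.sum_comp e, ← Equiv.sum_comp e] at this
      simpa [hv] using this
  rw [← hmap, Subgroup.card_map_of_injective E.injective]

theorem scalar_mem_gu {q : ℕ} [Nonempty ι] {r : Fˣ} (h : GeneralLinearGroup.scalar ι r ∈ gu F ι q) :
    r ^ (q + 1) = 1 := by
  classical
  obtain ⟨i⟩ := ‹Nonempty ι›
  have hq : q ≠ 0 ∨ q = 0 := (em (q = 0)).symm
  have := mem_gu.1 h (Pi.single i 1) (Pi.single i 1)
  rw [Finset.sum_eq_single i, Finset.sum_eq_single i] at this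
  · refine Units.ext ?_
    simpa [GeneralLinearGroup.coe_scalar, pow_succ'] using this
  all_goals first
    | (intro j _ hj; simp [GeneralLinearGroup.coe_scalar, hj])
    | (intro hj; exact absurd (Finset.mem_univ i) hj)

end Cfsg.Agent.Lib.Pronormal2.Unitary
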