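import Cfsg.Agent.Lib.Pronormal2.Count
import Cfsg.Agent.Lib.Pronormal2.Unitary.Defs

/-!
The power of `2` in `|GU_{2m}(q)|`, `m` a power of `2`, `q` odd.
-/

set_option autoImplicit false
set_option linter.style.haveILetI false
set_option linter.unusedSectionVars false

namespace Cfsg.Agent.Lib.Pronormal2.Unitary

universe u

/-- The power of `2` in `q^j - (-1)^j`. -/
def uTwo (q j : ℕ) : ℕ := if Even j then vTwo q j else vTwo q 2 - vTwo q 1

theorem uTwo_spec {q : ℕ} (hq : Odd q) (hq3 : 3 ≤ q) {j : ℕ} (hj : Odd j) :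
    (q ^ j + 1).factorization 2 = uTwo q j := by
  rw [uTwo, if_neg (Nat.not_even_iff_odd.2 hj)]
  have hj0 : j ≠ 0 := fun h => by simp [h] at hj
  have h1 : q ^ (2 * j) - 1 = (q ^ j + 1) * (q ^ j - 1) := by
    rw [← Nat.sq_sub_sq, one_pow, ← pow_mul, mul_comm]
  have h2 : vTwo q (2 * j) = (q ^ j + 1).factorization 2 + vTwo q j := by
    show (q ^ (2 * j) - 1).factorization 2 = _
    rw [h1, Nat.factorization_mul (by omega) (sub_pos_of hq3 hj0), Finsupp.add_apply]
    rfl
  have h3 : vTwo q (2 * j) = vTwo q 2 := vTwo_mul_odd hq hq3 (by norm_num) hj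
  have h4 : vTwo q j = vTwo q 1 := by
    simpa using vTwo_mul_odd hq hq3 one_ne_zero hj
  omega

theorem sum_uTwo {q : ℕ} (hq : Odd q) (hq3 : 3 ≤ q) {v : ℕ} (hv : 1 ≤ v) :
    ∑ j ∈ Finset.range (2 ^ v + 2 ^ v), uTwo q (j + 1) =
      1 + 2 * ∑ j ∈ Finset.range (2 ^ v), uTwo q (j + 1) := by
  obtain ⟨m, hm⟩ : ∃ m, 2 ^ v = m + 1 := ⟨2 ^ v - 1, by have := Nat.one_le_two_pow (n := v); omega⟩
  have heven : Even (2 ^ v) := Nat.even_pow.2 ⟨even_two, by omega⟩
  have hlast : uTwo q (2 ^ v + m + 1) = uTwo q (m + 1) + 1 := by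
    rw [show 2 ^ v + m + 1 = 2 * 2 ^ v by omega, ← hm, uTwo, if_pos (even_two_mul _), uTwo, if_pos heven]
    exact vTwo_double hq hq3 heven (by positivity)
  have hadd : ∀ x, x < m → uTwo q (2 ^ v + x + 1) = uTwo q (x + 1) := by
    intro x hx
    rw [add_assoc, uTwo, uTwo]
    by_cases he : Even (x + 1)
    · rw [if_pos (heven.add he), if_pos he]
      exact vTwo_add hq hq3 (Nat.succ_ne_zero x) (by omega)
    · rw [if_neg (fun h => he ((Nat.even_add.1 h).1 heven)), if_neg he]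
  have key : ∑ x ∈ Finset.range (2 ^ v), uTwo q (2 ^ v + x + 1) =
      (∑ x ∈ Finset.range (2 ^ v), uTwo q (x + 1)) + 1 := by
    have e : ∀ (f : ℕ → ℕ), ∑ x ∈ Finset.range (2 ^ v), f x = (∑ x ∈ Finset.range m, f x) + f m :=
      fun f => by rw [hm, Finset.sum_range_succ]
    rw [e, e, hlast, Finset.sum_congr rfl (g := fun x => uTwo q (x + 1))
      fun x hx => hadd x (Finset.mem_range.1 hx)]
    ring
  rw [Finset.sum_range_add, key]
  ring

theorem factorization_card_gu {F : Type u} [Field F] [Fintype F] {ι : Type} [Fintype ι] [DecidableEq ι]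
    {q : ℕ} (hF : Fintype.card F = q ^ 2) (hq : Odd q) :
    (Nat.card (gu F ι q)).factorization 2 = ∑ j ∈ Finset.range (Fintype.card ι), uTwo q (j + 1) := by
  classical
  have hq3 : 3 ≤ q := by
    have := Classical.Herm.two_le_q hF
    obtain ⟨c, hc⟩ := hq; omega
  rw [card_gu (Fintype.equivFin ι), Classical.Herm.card_GU hF]
  have hne : ∀ i ∈ Finset.range (Fintype.card ι),
      (if Even i then q ^ (i + 1) + 1 else q ^ (i + 1) - 1) ≠ 0 := by
    intro i _
    split_ifs
    · omega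
    · exact sub_pos_of hq3 (Nat.succ_ne_zero i)
  rw [Nat.factorization_mul (pow_ne_zero _ (by omega)) (Finset.prod_ne_zero_iff.2 hne), Finsupp.add_apply,
    Nat.factorization_pow, Finsupp.smul_apply,
    Nat.factorization_eq_zero_of_not_dvd (show ¬ 2 ∣ q by rw [Nat.odd_iff] at hq; omega), smul_zero, zero_add,
    Nat.factorization_prod hne, Finsupp.finsetSum_apply]
  refine Finset.sum_congr rfl fun i _ => ?_
  by_cases he : Even i
  · rw [if_pos he, uTwo_spec hq hq3 he.add_one]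
  · rw [if_neg he, uTwo, if_pos (Nat.even_add_one.2 he)]
    rfl

theorem factorization_card_gu_double {F : Type u} [Field F] [Fintype F] {ι : Type} [Fintype ι] [DecidableEq ι]
    {q : ℕ} (hF : Fintype.card F = q ^ 2) (hq : Odd q) {v : ℕ} (hv : 1 ≤ v) (hι : Fintype.card ι = 2 ^ v) :
    (Nat.card (gu F (ι ⊕ ι) q)).factorization 2 = 1 + 2 * (Nat.card (gu F ι q)).factorization 2 := by
  have := Classical.Herm.two_le_q hF
  rw [factorization_card_gu hF hq, factorization_card_gu hF hq, Fintype.card_sum, hι,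
    sum_uTwo hq (by obtain ⟨c, hc⟩ := hq; omega) hv]

end Cfsg.Agent.Lib.Pronormal2.Unitary
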