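import Cfsg.Agent.Lib.Pronormal2.Unitary.Step
import Cfsg.Agent.Lib.Pronormal2.PSLTwo

/-!
Sylow `2`-subgroups of `PSU_{2^w}(q)`, `w ≥ 2`, `q` odd, are self-normalizing.
-/

set_option autoImplicit false
set_option linter.style.haveILetI false
set_option linter.unusedSectionVars false

namespace Cfsg.Agent.Lib.Pronormal2.Unitary

open Matrix

universe u

variable {F : Type u} [Field F] [Fintype F]

theorem pronormal_psu_odd {q : ℕ} (hF : Fintype.card F = q ^ 2) (hq : Odd q) {w : ℕ} (hw : 2 ≤ w)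
    {H : Subgroup (Cfsg.PSU (2 ^ w) F q)} {S : Sylow 2 (Cfsg.PSU (2 ^ w) F q)}
    (hSH : (S : Subgroup (Cfsg.PSU (2 ^ w) F q)) ≤ H) : Cfsg.IsPronormal H := by
  classical
  haveI : Fact (Nat.Prime 2) := ⟨Nat.prime_two⟩
  refine pronormal_of_odd_normalizer S H hSH fun x₀ hx₀ hn₀ => ?_
  suffices h1 : x₀ = 1 from ⟨1, one_mem _, by rw [h1]⟩
  obtain ⟨ι, _, _, hι, hG⟩ := exists_goodU (F := F) hF hq (w - 2)
  have hι' : Fintype.card ι = 2 ^ (w - 1) := by rw [hι]; congr 1; omega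
  obtain ⟨T₀, hO⟩ := (goodU_step hF hq (by omega) hι' hG).2
  set mk := QuotientGroup.mk' (Subgroup.center (Cfsg.SU (2 ^ w) F q)) with hmk
  have hker : IsPGroup 2 mk.ker := by
    rw [hmk, QuotientGroup.ker_mk']
    obtain ⟨k, -, hk⟩ := (Nat.dvd_prime_pow Nat.prime_two).1
      (show Nat.card (Subgroup.center (Cfsg.SU (2 ^ w) F q)) ∣ 2 ^ w by
        rw [Classical.Herm.card_center_SU hF Nat.one_le_two_pow]; exact Nat.gcd_dvd_left _ _)
    exact IsPGroup.of_card (n := k) hk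
  obtain ⟨P, hP⟩ := exists_sylow_comap mk (QuotientGroup.mk'_surjective _) hker S
  obtain ⟨g, rfl⟩ := QuotientGroup.mk'_surjective _ x₀
  obtain ⟨i, j, hij, hi, k, hk⟩ := exists_parts g
  let e : Fin (2 ^ w) ≃ ι ⊕ ι := Fintype.equivOfCardEq (by
    rw [Fintype.card_fin, Fintype.card_sum, hι', ← mul_two, ← pow_succ]; congr 1; omega)
  let E : GL (Fin (2 ^ w)) F ≃* GL (ι ⊕ ι) F := Units.mapEquiv (Matrix.reindexAlgEquiv F F e).toMulEquiv
  let φ : Cfsg.SU (2 ^ w) F q →* GL (ι ⊕ ι) F :=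
    E.toMonoidHom.comp (SpecialLinearGroup.toGL.comp (Cfsg.SU (2 ^ w) F q).subtype)
  have hφ : Function.Injective φ :=
    E.injective.comp (Classical.toGL_injective.comp Subtype.val_injective)
  have hEv : ∀ (y : GL (Fin (2 ^ w)) F) (u : Fin (2 ^ w) → F) (i : Fin (2 ^ w)),
      ((E y).val *ᵥ (u ∘ e.symm)) (e i) = (y.val *ᵥ u) i := fun y u i => by
    show (Matrix.reindex e e y.val *ᵥ (u ∘ e.symm)) (e i) = _
    rw [Matrix.reindex_apply, Matrix.submatrix_mulVec_equiv]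
    simp [Function.comp_assoc]
  have hEgu : ∀ y : GL (Fin (2 ^ w)) F, E y ∈ gu F (ι ⊕ ι) q ↔ y ∈ Cfsg.GU (2 ^ w) F q := by
    intro y
    rw [mem_gu, Classical.Herm.mem_GU]
    constructor
    · intro h u v
      have := h (u ∘ e.symm) (v ∘ e.symm)
      rw [← Equiv.sum_comp e, ← Equiv.sum_comp e] at this
      simpa [Cfsg.hermForm, hEv] using this
    · intro h u v
      have := h (u ∘ e) (v ∘ e)
      simp only [Cfsg.hermForm, ← hEv, Function.comp_assoc, Equiv.self_comp_symm, Function.comp_id,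
        Function.comp_apply] at this
      rwa [Equiv.sum_comp e (fun i => ((E y).val *ᵥ u) i * ((E y).val *ᵥ v) i ^ q),
        Equiv.sum_comp e (fun i => u i * v i ^ q)] at this
  have hφd : ∀ y, φ y ∈ slK F (ι ⊕ ι) := fun y => by
    rw [mem_slK]
    refine Units.ext ?_
    show (Matrix.reindexAlgEquiv F F e y.1.1).det = 1
    rw [Matrix.det_reindexAlgEquiv]; exact y.1.2
  have hφG : ∀ y, φ y ∈ gu F (ι ⊕ ι) q := fun y => (hEgu _).2 y.2
  have hφs : ∀ z ∈ slK F (ι ⊕ ι), z ∈ gu F (ι ⊕ ι) q → ∃ y, φ y = z := by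
    intro z hz hzG
    rw [mem_slK] at hz
    obtain ⟨y, rfl⟩ := E.surjective z
    have hd : y.1.det = 1 := by
      have := congrArg Units.val hz
      change (Matrix.reindexAlgEquiv F F e y.1).det = 1 at this
      rwa [Matrix.det_reindexAlgEquiv] at this
    exact ⟨⟨⟨y.1, hd⟩, (hEgu y).1 hzG⟩, congrArg E (Units.ext rfl)⟩
  let G := gu F (ι ⊕ ι) q
  let φ' : Cfsg.SU (2 ^ w) F q →* G := φ.codRestrict G hφG
  obtain ⟨T, hT⟩ := (P.isPGroup'.map φ').exists_le_sylow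
  obtain ⟨h, hh⟩ := MulAction.exists_smul_eq G T₀ T
  have hTP : ∀ y, φ' y ∈ (T : Subgroup G) → y ∈ (P : Subgroup (Cfsg.SU (2 ^ w) F q)) := by
    intro y hy
    exact (P.3 (T.2.comap_of_injective φ' (fun a b e' => hφ (congrArg Subtype.val e')))
      (Subgroup.map_le_iff_le_comap.1 hT)) ▸ hy
  have hgn : ∀ y ∈ (P : Subgroup (Cfsg.SU (2 ^ w) F q)), g ^ i * y * (g ^ i)⁻¹ ∈
      (P : Subgroup (Cfsg.SU (2 ^ w) F q)) := by
    have hgN : g ∈ Subgroup.normalizer ((P : Subgroup (Cfsg.SU (2 ^ w) F q)) : Set _) := by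
      refine Subgroup.mem_normalizer_iff_map_conj_eq.2 (Subgroup.eq_of_le_of_card_ge ?_
        (by rw [Subgroup.card_map_of_injective (MulAut.conj g).injective]))
      rintro _ ⟨y, hy, rfl⟩
      rw [hP, Subgroup.coe_comap] at hy
      rw [hP, Subgroup.mem_comap]
      show mk (g * y * g⁻¹) ∈ _
      rw [map_mul, map_mul, map_inv]
      exact hn₀ _ hy
    exact fun y hy => (Subgroup.mem_normalizer_iff.1 (Subgroup.zpow_mem _ hgN i) y).1 hy
  have hcen : φ (g ^ i) ∈ Subgroup.center (GL (ι ⊕ ι) F) := by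
    have hx : (h : GL (ι ⊕ ι) F)⁻¹ * φ (g ^ i) * h ∈ Subgroup.center (GL (ι ⊕ ι) F) := by
      refine hO _ (mul_mem (mul_mem (inv_mem h.2) (hφG _)) h.2) ?_ fun r hr => ?_
      · rw [show (h : GL (ι ⊕ ι) F)⁻¹ * φ (g ^ i) * h = MulAut.conj (h : GL (ι ⊕ ι) F)⁻¹ (φ (g ^ i)) by simp,
          MulEquiv.orderOf_eq, orderOf_injective φ hφ]
        exact hi
      · obtain ⟨⟨z, hz, rfl⟩, hrd⟩ := Subgroup.mem_inf.1 hr
        have hz' : h * z * h⁻¹ ∈ (T : Subgroup G) := by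
          rw [← hh, Sylow.coe_subgroup_smul]; exact ⟨z, hz, rfl⟩
        obtain ⟨y, hy⟩ := hφs ((h * z * h⁻¹ : G) : GL (ι ⊕ ι) F)
          (by
            simp only [Subgroup.coe_mul, Subgroup.coe_inv]
            exact Subgroup.Normal.conj_mem inferInstance _ hrd _)
          (h * z * h⁻¹ : G).2
        have hyT : φ' y ∈ (T : Subgroup G) := by
          rw [show φ' y = h * z * h⁻¹ from Subtype.ext hy]; exact hz'
        have hconj := hT ⟨_, hgn y (hTP y hyT), rfl⟩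
        rw [← hh, Sylow.coe_subgroup_smul] at hconj
        obtain ⟨z', hz'', he⟩ := hconj
        have he' : (h : GL (ι ⊕ ι) F) * z' * (h : GL (ι ⊕ ι) F)⁻¹ = φ (g ^ i * y * (g ^ i)⁻¹) :=
          congrArg Subtype.val he
        have heq : (h : GL (ι ⊕ ι) F)⁻¹ * φ (g ^ i) * h * z * ((h : GL (ι ⊕ ι) F)⁻¹ * φ (g ^ i) * h)⁻¹ = z' := by
          have hy' : φ y = (h : GL (ι ⊕ ι) F) * z * (h : GL (ι ⊕ ι) F)⁻¹ := by rw [hy]; simp
          calc _ = (h : GL (ι ⊕ ι) F)⁻¹ * (φ (g ^ i) * φ y * (φ (g ^ i))⁻¹) * h := by rw [hy']; group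
            _ = (h : GL (ι ⊕ ι) F)⁻¹ * (h * z' * (h : GL (ι ⊕ ι) F)⁻¹) * h := by rw [he', map_mul, map_mul, map_inv]
            _ = _ := by group
        refine Subgroup.mem_inf.2 ⟨⟨z', hz'', heq.symm⟩, ?_⟩
        exact Subgroup.Normal.conj_mem inferInstance _ hrd _
    have := Subgroup.Normal.conj_mem inferInstance _ hx (h : GL (ι ⊕ ι) F)
    simpa [mul_assoc] using this
  rw [GeneralLinearGroup.center_eq_range_scalar] at hcen
  obtain ⟨r, hr⟩ := hcen
  have hrd : (r : F) ^ (2 ^ w) = 1 := by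
    have h := mem_slK.1 (hφd (g ^ i))
    rw [← hr] at h
    have := congrArg Units.val h
    simp [GeneralLinearGroup.coe_scalar] at this
    rw [hι'] at this
    have e2 : (2 : ℕ) ^ w = 2 ^ (w - 1) + 2 ^ (w - 1) := by rw [← mul_two, ← pow_succ]; congr 1; omega
    rw [e2]
    exact this
  have hgi : (g ^ i) ^ (2 ^ w) = 1 := by
    refine hφ ?_
    rw [map_pow, ← hr, ← map_pow, map_one, show r ^ (2 ^ w) = 1 from Units.ext (by simpa using hrd), map_one]
  have h1 : g ^ i = 1 := by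
    have := (pow_gcd_eq_one (a := g ^ i)).2 ⟨pow_orderOf_eq_one _, hgi⟩
    rwa [Nat.Coprime.pow_right w (Nat.coprime_two_right.2 hi), pow_one] at this
  have hgk : g ^ 2 ^ k = 1 := by
    rw [hij, h1, one_mul, hk]
  have h2 : mk g ^ 2 ^ k = 1 := by rw [← map_pow, hgk, map_one]
  have := (pow_gcd_eq_one (a := mk g)).2 ⟨pow_orderOf_eq_one _, h2⟩
  rwa [Nat.Coprime.pow_right k (Nat.coprime_two_right.2 hx₀), pow_one] at this

end Cfsg.Agent.Lib.Pronormal2.Unitary
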