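import Cfsg.Agent.Lib.Pronormal2.Unitary.Wreath
import Cfsg.Agent.Lib.Pronormal2.Unitary.BaseU
import Cfsg.Agent.Lib.Pronormal2.Unitary.Count

/-!
From `GU_m` to `GU_{2m}`.
-/

set_option autoImplicit false
set_option linter.style.haveILetI false
set_option linter.unusedSectionVars false

namespace Cfsg.Agent.Lib.Pronormal2.Unitary

open Matrix

universe u

variable {F : Type u} [Field F] [Fintype F] {ι : Type} [Fintype ι] [DecidableEq ι]

theorem blk_mulVec (a b : GL ι F) (v : ι ⊕ ι → F) :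
    (blk a b).val *ᵥ v = Sum.elim (a.val *ᵥ (v ∘ Sum.inl)) (b.val *ᵥ (v ∘ Sum.inr)) := by
  simp [blk, fromBlocks_mulVec]

theorem blk_mem_gu {q : ℕ} (hq : q ≠ 0) {a b : GL ι F} :
    blk a b ∈ gu F (ι ⊕ ι) q ↔ a ∈ gu F ι q ∧ b ∈ gu F ι q := by
  constructor
  · intro h
    refine ⟨mem_gu.2 fun u v => ?_, mem_gu.2 fun u v => ?_⟩
    · have := mem_gu.1 h (Sum.elim u 0) (Sum.elim v 0)
      simpa [blk_mulVec, Fintype.sum_sum_type, zero_pow hq] using this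
    · have := mem_gu.1 h (Sum.elim 0 u) (Sum.elim 0 v)
      simpa [blk_mulVec, Fintype.sum_sum_type, zero_pow hq] using this
  · rintro ⟨ha, hb⟩
    refine mem_gu.2 fun u v => ?_
    rw [Fintype.sum_sum_type, Fintype.sum_sum_type]
    have h1 := mem_gu.1 ha (u ∘ Sum.inl) (v ∘ Sum.inl)
    have h2 := mem_gu.1 hb (u ∘ Sum.inr) (v ∘ Sum.inr)
    simp only [blk_mulVec, Sum.elim_inl, Sum.elim_inr, Function.comp_apply] at h1 h2 ⊢
    rw [h1, h2]

theorem swp_mem_gu {q : ℕ} (hq : Odd q) : swp F ι ∈ gu F (ι ⊕ ι) q := by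
  refine mem_gu.2 fun u v => ?_
  have e : ∀ w : ι ⊕ ι → F, (swp F ι).val *ᵥ w = Sum.elim (w ∘ Sum.inr) (-(w ∘ Sum.inl)) := fun w => by
    simp [swp, fromBlocks_mulVec, Matrix.neg_mulVec]
  rw [Fintype.sum_sum_type, Fintype.sum_sum_type]
  simp [e, hq.neg_pow, add_comm]

theorem goodU_step {q : ℕ} (hF : Fintype.card F = q ^ 2) (hq : Odd q) {v : ℕ} (hv : 1 ≤ v)
    (hι : Fintype.card ι = 2 ^ v) (hG : GoodU F ι q) :
    GoodU F (ι ⊕ ι) q ∧ ∃ T : Sylow 2 (gu F (ι ⊕ ι) q),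
      OddCentralIn (gu F (ι ⊕ ι) q)
        ((T : Subgroup (gu F (ι ⊕ ι) q)).map (gu F (ι ⊕ ι) q).subtype ⊓ slK F (ι ⊕ ι)) := by
  classical
  haveI : Fact (Nat.Prime 2) := ⟨Nat.prime_two⟩
  haveI : Nonempty ι := Fintype.card_pos_iff.1 (by rw [hι]; positivity)
  have hq0 : q ≠ 0 := fun h => by simp [h] at hq
  have h2 : (2 : F) ≠ 0 := Classical.two_ne_zero_of_odd_card (by rw [hF]; exact hq.pow)
  obtain ⟨S, hSG, hcard, hI, ⟨c, hc, hcc⟩, hO⟩ := hG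
  have hle : wr S ≤ gu F (ι ⊕ ι) q := by
    rintro _ ⟨a, ha, b, hb, rfl | rfl⟩
    · exact (blk_mem_gu hq0).2 ⟨hSG ha, hSG hb⟩
    · exact mul_mem ((blk_mem_gu hq0).2 ⟨hSG ha, hSG hb⟩) (swp_mem_gu hq)
  have hc2 : Nat.card (wr S) = 2 ^ (Nat.card (gu F (ι ⊕ ι) q)).factorization 2 := by
    rw [card_wr, hcard, factorization_card_gu_double hF hq hv hι]
    ring
  have hneg : (-1 : GL (ι ⊕ ι) F) ∈ wr S := by
    refine ⟨-1, S.2.2, -1, S.2.2, Or.inl (Units.ext ?_)⟩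
    simp only [blk, Units.val_neg, Units.val_one]
    rw [← fromBlocks_one, fromBlocks_neg, neg_zero]
  let T : TwoSub F (ι ⊕ ι) := ⟨wr S, IsPGroup.of_card hc2, hneg⟩
  have hN := oddCentral_step S h2 hI hc hcc (gu F ι q) (gu F (ι ⊕ ι) q) (fun a b h => (blk_mem_gu hq0).1 h) hO
  refine ⟨⟨T, hle, hc2, irr_step S h2 hI hc hcc, ⟨blk c c, ?_, ?_⟩, fun x hxG hx hn => ?_⟩,
    Sylow.ofCard ((wr S).subgroupOf _) (by rw [Nat.card_congr (Subgroup.subgroupOfEquivOfLe hle).toEquiv, hc2]), ?_⟩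
  · rw [show blk c c = blk c 1 * blk 1 c by rw [blk_mul, mul_one, one_mul]]
    exact mul_mem (blk_mem S hc).1 (blk_mem S hc).2
  · rw [blk_mul, hcc]
    refine Units.ext ?_
    simp only [blk, Units.val_neg, Units.val_one]
    rw [← fromBlocks_one, fromBlocks_neg, neg_zero]
  · refine hN x hxG hx fun r hr => Subgroup.mem_inf.2 ⟨hn r (Subgroup.mem_inf.1 hr).1, ?_⟩
    exact Subgroup.Normal.conj_mem inferInstance r (Subgroup.mem_inf.1 hr).2 x
  · rw [show ((Sylow.ofCard ((wr S).subgroupOf (gu F (ι ⊕ ι) q)) _ : Sylow 2 _) : Subgroup _) =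
      (wr S).subgroupOf (gu F (ι ⊕ ι) q) from rfl, Subgroup.map_subgroupOf_eq_of_le hle]
    exact hN

theorem exists_goodU {q : ℕ} (hF : Fintype.card F = q ^ 2) (hq : Odd q) :
    ∀ v : ℕ, ∃ (ι : Type) (_ : Fintype ι) (_ : DecidableEq ι), Fintype.card ι = 2 ^ (v + 1) ∧ GoodU F ι q := by
  intro v
  induction v with
  | zero => exact ⟨Fin 2, inferInstance, inferInstance, by simp, goodU_two hF hq⟩
  | succ v ih =>
    obtain ⟨ι, _, _, hι, hG⟩ := ih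
    exact ⟨ι ⊕ ι, inferInstance, inferInstance, by rw [Fintype.card_sum, hι, pow_succ 2 (v + 1), mul_two],
      (goodU_step hF hq (by omega) hι hG).1⟩

end Cfsg.Agent.Lib.Pronormal2.Unitary
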